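import Mathlib

/-!
# Schur orthogonality in the coprime characteristic, and the trace identity

`Q` acts irreducibly on `V` over an algebraically closed field in which `|Q|` is invertible.  An
operator `X` normalizes the image of `Q`.  For `a` commuting with `X` and `b` of trace zero
along `X` we get `tr (a b) * d = tr a * tr b`.
-/

set_option autoImplicit false

namespace Cfsg.Agent.Lib.HHB

open Module Finset

variable {K V : Type*} [Field K] [AddCommGroup V] [Module K V]

/-- Rank one operators. -/
noncomputable abbrev ro (v : V) (φ : Module.Dual K V) : Module.End K V := φ.smulRight v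

@[simp] theorem ro_apply (v : V) (φ : Module.Dual K V) (w : V) : ro v φ w = φ w • v := rfl

theorem trace_ro [FiniteDimensional K V] (v : V) (φ : Module.Dual K V) :
    LinearMap.trace K V (ro v φ) = φ v := by
  have h : ro v φ = dualTensorHom K V V (φ ⊗ₜ[K] v) := by
    ext w
    simp [dualTensorHom_apply]
  rw [h, LinearMap.trace_eq_contract_apply]
  simp

theorem trace_mul_ro [FiniteDimensional K V] (a : Module.End K V) (v : V) (φ : Module.Dual K V) :
    LinearMap.trace K V (a * ro v φ) = φ (a v) := by
  have h : a * ro v φ = ro (a v) φ := by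
    ext w
    simp
  rw [h, trace_ro]

section Schur

variable {Q : Type*} [Group Q]

/-- Schur's lemma. -/
theorem schur_scalar [IsAlgClosed K] [FiniteDimensional K V] [Nontrivial V] (ρ : Q →* Module.End K V)
    (hirr : ∀ W : Submodule K V, (∀ g, W.map (ρ g) ≤ W) → W = ⊥ ∨ W = ⊤) (c : Module.End K V)
    (hc : ∀ g, ρ g * c = c * ρ g) : ∃ μ : K, c = μ • 1 := by
  obtain ⟨μ, hμ⟩ := Module.End.exists_eigenvalue c
  refine ⟨μ, ?_⟩
  have hW : (c.eigenspace μ) = ⊤ := by
    refine (hirr (c.eigenspace μ) ?_).resolve_left hμ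
    intro g
    rintro _ ⟨v, hv, rfl⟩
    have hv' : c v = μ • v := Module.End.mem_eigenspace_iff.mp hv
    refine Module.End.mem_eigenspace_iff.mpr ?_
    have := congrArg (fun f => f v) (hc g)
    simp only [Module.End.mul_apply] at this
    rw [← this, hv', map_smul]
  ext v
  have hv : v ∈ c.eigenspace μ := by rw [hW]; trivial
  simpa using Module.End.mem_eigenspace_iff.mp hv

variable [Fintype Q]

/-- The averaging identity. -/
theorem avg_eq [IsAlgClosed K] [FiniteDimensional K V] [Nontrivial V] (ρ : Q →* Module.End K V)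
    (hirr : ∀ W : Submodule K V, (∀ g, W.map (ρ g) ≤ W) → W = ⊥ ∨ W = ⊤) (b : Module.End K V) :
    (finrank K V : K) • ∑ g, ρ g * b * ρ g⁻¹ = ((Fintype.card Q : K) * LinearMap.trace K V b) • 1 := by
  set A : Module.End K V := ∑ g, ρ g * b * ρ g⁻¹ with hA
  have hcomm : ∀ h, ρ h * A = A * ρ h := by
    intro h
    have h1 : ρ h * A * ρ h⁻¹ = A := by
      rw [hA, Finset.mul_sum, Finset.sum_mul]
      refine Fintype.sum_equiv (Equiv.mulLeft h) _ _ (fun g => ?_)
      simp only [Equiv.coe_mulLeft, mul_inv_rev, map_mul, mul_assoc]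
    have h2 : ρ h⁻¹ * ρ h = 1 := by rw [← map_mul]; simp
    calc ρ h * A = ρ h * A * (ρ h⁻¹ * ρ h) := by rw [h2, mul_one]
      _ = (ρ h * A * ρ h⁻¹) * ρ h := by simp only [mul_assoc]
      _ = A * ρ h := by rw [h1]
  obtain ⟨μ, hμ⟩ := schur_scalar ρ hirr A hcomm
  have htr : LinearMap.trace K V A = (Fintype.card Q : K) * LinearMap.trace K V b := by
    rw [hA, map_sum]
    have : ∀ g, LinearMap.trace K V (ρ g * b * ρ g⁻¹) = LinearMap.trace K V b := by
      intro g
      rw [LinearMap.trace_mul_comm, ← mul_assoc]
      have h2 : ρ g⁻¹ * ρ g = 1 := by rw [← map_mul]; simp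
      rw [h2, one_mul]
    simp [this, Finset.card_univ]
  have htr2 : LinearMap.trace K V A = μ * (finrank K V : K) := by
    rw [hμ, map_smul, LinearMap.trace_one]
    simp
  rw [hμ, ← htr, htr2]
  ext v
  simp [mul_comm, smul_smul]

theorem finrank_ne_zero_of_irr [IsAlgClosed K] [FiniteDimensional K V] [Nontrivial V] (ρ : Q →* Module.End K V)
    (hirr : ∀ W : Submodule K V, (∀ g, W.map (ρ g) ≤ W) → W = ⊥ ∨ W = ⊤)
    (hN : (Fintype.card Q : K) ≠ 0) : (finrank K V : K) ≠ 0 := by
  intro h
  obtain ⟨v, hv⟩ := exists_ne (0 : V)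
  obtain ⟨φ, hφ⟩ : ∃ φ : Module.Dual K V, φ v ≠ 0 := by
    by_contra hcon
    push Not at hcon
    exact hv ((Module.forall_dual_apply_eq_zero_iff K v).mp hcon)
  have h1 := avg_eq ρ hirr (ro v φ)
  rw [h, zero_smul, trace_ro] at h1
  have h2 := congrArg (fun f => f v) h1
  simp only [LinearMap.zero_apply, LinearMap.smul_apply, Module.End.one_apply] at h2
  have h3 : (Fintype.card Q : K) * φ v = 0 := by
    by_contra h4
    exact hv ((smul_eq_zero.mp h2.symm).resolve_left h4)
  exact (mul_ne_zero hN hφ) h3

/-- The expansion of an operator in terms of the group. -/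
theorem expansion [IsAlgClosed K] [FiniteDimensional K V] [Nontrivial V] (ρ : Q →* Module.End K V)
    (hirr : ∀ W : Submodule K V, (∀ g, W.map (ρ g) ≤ W) → W = ⊥ ∨ W = ⊤) (a : Module.End K V) :
    (finrank K V : K) • ∑ g, LinearMap.trace K V (ρ g⁻¹ * a) • ρ g = (Fintype.card Q : K) • a := by
  classical
  -- rank one case
  have hro : ∀ (w : V) (φ : Module.Dual K V),
      (finrank K V : K) • ∑ g, LinearMap.trace K V (ρ g⁻¹ * ro w φ) • ρ g = (Fintype.card Q : K) • ro w φ := by
    intro w φ
    ext v
    have h1 := congrArg (fun f => f w) (avg_eq ρ hirr (ro v φ))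
    simp only [LinearMap.smul_apply, LinearMap.sum_apply, Module.End.mul_apply, ro_apply, map_smul,
      trace_ro, Module.End.one_apply] at h1
    simp only [LinearMap.smul_apply, LinearMap.sum_apply, trace_mul_ro, ro_apply, Module.End.mul_apply]
    rw [h1, smul_smul]
  let b := Module.finBasis K V
  have hdec : a = ∑ i, ro (a (b i)) (b.coord i) := by
    ext v
    conv_lhs => rw [← b.sum_repr v, map_sum]
    simp [LinearMap.sum_apply]
  rw [hdec]
  simp only [Finset.mul_sum, map_sum, Finset.sum_smul, Finset.smul_sum]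
  rw [Finset.sum_comm]
  refine Finset.sum_congr rfl fun i _ => ?_
  rw [← hro (a (b i)) (b.coord i), Finset.smul_sum]

/-- The trace form on a product. -/
theorem trace_mul_expansion [IsAlgClosed K] [FiniteDimensional K V] [Nontrivial V] (ρ : Q →* Module.End K V)
    (hirr : ∀ W : Submodule K V, (∀ g, W.map (ρ g) ≤ W) → W = ⊥ ∨ W = ⊤) (a b : Module.End K V) :
    (finrank K V : K) * ∑ g, LinearMap.trace K V (ρ g⁻¹ * a) * LinearMap.trace K V (ρ g * b) =
      (Fintype.card Q : K) * LinearMap.trace K V (a * b) := by
  have h := congrArg (fun f => LinearMap.trace K V (f * b)) (expansion ρ hirr a)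
  simp only [smul_mul_assoc, map_smul, Finset.sum_mul, map_sum, smul_eq_mul] at h
  exact h

end Schur

/-- Sums over free orbits. -/
theorem sum_orbit_free {α M : Type*} [DecidableEq α] [AddCommMonoid M] (f : α → α) {n : ℕ} (hn : 0 < n)
    (hfn : ∀ a, f^[n] a = a) (F : α → M) (S : Finset α) (hS : ∀ a ∈ S, f a ∈ S)
    (hfree : ∀ a ∈ S, ∀ i, 0 < i → i < n → f^[i] a ≠ a)
    (hF : ∀ a ∈ S, ∑ i ∈ range n, F (f^[i] a) = 0) : ∑ a ∈ S, F a = 0 := by
  induction S using Finset.strongInduction with
  | H S ih =>
    by_cases hne : S.Nonempty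
    swap
    · rw [Finset.not_nonempty_iff_eq_empty.mp hne]
      simp
    obtain ⟨a, ha⟩ := hne
    let O : Finset α := (range n).image (fun i => f^[i] a)
    have hit : ∀ i, f^[i] a ∈ S := by
      intro i
      induction i with
      | zero => exact ha
      | succ i ih' =>
        rw [Function.iterate_succ_apply']
        exact hS _ ih'
    have hOS : O ⊆ S := by
      intro b hb
      obtain ⟨i, -, rfl⟩ := Finset.mem_image.mp hb
      exact hit i
    have hinj : Function.Injective f := by
      intro x y h
      have h1 : ∀ z, f^[n - 1] (f z) = z := by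
        intro z
        rw [← Function.iterate_succ_apply, show (n - 1).succ = n by omega, hfn]
      rw [← h1 x, ← h1 y, h]
    have hinj' : ∀ k, Function.Injective f^[k] := fun k => hinj.iterate k
    have hmem : ∀ i, i < n → f^[i] a ∈ O := fun i hi =>
      Finset.mem_image.mpr ⟨i, Finset.mem_range.mpr hi, rfl⟩
    have hinjO : Set.InjOn (fun i => f^[i] a) (range n : Set ℕ) := by
      have key : ∀ i j, i < j → j < n → f^[i] a ≠ f^[j] a := by
        intro i j hij hj h
        have h1 : f^[j] a = f^[i] (f^[j - i] a) := by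
          rw [← Function.iterate_add_apply]
          congr 1
          omega
        rw [h1] at h
        exact hfree a ha (j - i) (by omega) (by omega) (hinj' i h).symm
      intro i hi j hj h
      have hi' : i < n := Finset.mem_range.mp hi
      have hj' : j < n := Finset.mem_range.mp hj
      rcases lt_trichotomy i j with hlt | heq | hgt
      · exact absurd h (key i j hlt hj')
      · exact heq
      · exact absurd h.symm (key j i hgt hi')
    have hsum : ∑ b ∈ O, F b = 0 := by
      rw [Finset.sum_image hinjO]
      exact hF a ha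
    have hsd : ∑ b ∈ S \ O, F b = 0 := by
      refine ih (S \ O) ?_ ?_ ?_ ?_
      · refine Finset.sdiff_ssubset hOS ?_
        exact ⟨a, hmem 0 hn⟩
      · intro b hb
        obtain ⟨hbS, hbO⟩ := Finset.mem_sdiff.mp hb
        refine Finset.mem_sdiff.mpr ⟨hS b hbS, fun hO => hbO ?_⟩
        obtain ⟨i, hi, e⟩ := Finset.mem_image.mp hO
        have hi' := Finset.mem_range.mp hi
        rcases Nat.eq_zero_or_pos i with rfl | hpos
        · have h1 : f (f^[n - 1] a) = f b := by
            rw [← Function.iterate_succ_apply' f (n - 1) a, show (n - 1).succ = n by omega, hfn]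
            exact e
          rw [← hinj h1]
          exact hmem _ (by omega)
        · have h1 : f (f^[i - 1] a) = f b := by
            rw [← Function.iterate_succ_apply' f (i - 1) a, show (i - 1).succ = i by omega]
            exact e
          rw [← hinj h1]
          exact hmem _ (by omega)
      · intro b hb
        exact hfree b (Finset.mem_sdiff.mp hb).1
      · intro b hb
        exact hF b (Finset.mem_sdiff.mp hb).1
    rw [← Finset.sum_sdiff hOS, hsd, hsum, add_zero]

end Cfsg.Agent.Lib.HHB
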