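import Mathlib
import Cfsg.Agent.Lib.HHB.Schur

/-!
# The trace identity along a normalizing operator; characteristic `p` identities
-/

set_option autoImplicit false

namespace Cfsg.Agent.Lib.HHB

open Module Finset

variable {K V : Type*} [Field K] [AddCommGroup V] [Module K V]

theorem pow_mul_pow_of_inv {X Y : Module.End K V} (hYX : Y * X = 1) (i : ℕ) : Y ^ i * X ^ i = 1 := by
  induction i with
  | zero => simp
  | succ i ih =>
    rw [pow_succ', pow_succ]
    calc Y * Y ^ i * (X ^ i * X) = Y * (Y ^ i * X ^ i) * X := by simp only [mul_assoc]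
      _ = 1 := by rw [ih, mul_one, hYX]

/-- **The trace identity.** -/
theorem trace_identity {Q : Type*} [Group Q] [Fintype Q] [IsAlgClosed K] [FiniteDimensional K V] [Nontrivial V]
    (ρ : Q →* Module.End K V) (hirr : ∀ W : Submodule K V, (∀ g, W.map (ρ g) ≤ W) → W = ⊥ ∨ W = ⊤)
    (hN : (Fintype.card Q : K) ≠ 0) (X Y : Module.End K V) (hXY : X * Y = 1) (hYX : Y * X = 1)
    (τ : Q → Q) {n : ℕ} (hn : 0 < n) (hnK : (n : K) = 0) (hτn : ∀ g, τ^[n] g = g)
    (hτ : ∀ g, X * ρ g * Y = ρ (τ g)) (hτinv : ∀ g, τ g⁻¹ = (τ g)⁻¹)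
    (hfix : ∀ g, τ g = g → ∃ μ : K, ρ g = μ • 1)
    (hfree : ∀ g, τ g ≠ g → ∀ i, 0 < i → i < n → τ^[i] g ≠ g)
    (a b : Module.End K V) (hab : a * X = X * a) (hb : ∑ i ∈ range n, Y ^ i * b * X ^ i = 0) :
    LinearMap.trace K V (a * b) * (finrank K V : K) = LinearMap.trace K V a * LinearMap.trace K V b := by
  classical
  set d : K := (finrank K V : K) with hd
  set N : K := (Fintype.card Q : K) with hNdef
  have hd0 : d ≠ 0 := finrank_ne_zero_of_irr ρ hirr hN
  let tr := LinearMap.trace K V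
  let c : Q → K := fun g => tr (ρ g⁻¹ * a)
  have hinjτ : Function.Injective τ := by
    intro x y h
    have h1 : ∀ z, τ^[n - 1] (τ z) = z := by
      intro z
      rw [← Function.iterate_succ_apply τ (n - 1) z, show (n - 1).succ = n by omega, hτn]
    rw [← h1 x, ← h1 y, h]
  have hcτ : ∀ g, c (τ g) = c g := by
    intro g
    show tr (ρ (τ g)⁻¹ * a) = tr (ρ g⁻¹ * a)
    rw [← hτinv, ← hτ g⁻¹]
    have e : X * ρ g⁻¹ * Y * a = X * (ρ g⁻¹ * Y * a) := by simp only [mul_assoc]
    rw [e, LinearMap.trace_mul_comm, mul_assoc, mul_assoc, hab, ← mul_assoc Y, hYX, one_mul]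
  have hcit : ∀ (i : ℕ) (g : Q), c (τ^[i] g) = c g := by
    intro i g
    induction i with
    | zero => rfl
    | succ i ih => rw [Function.iterate_succ_apply', hcτ, ih]
  have hρit : ∀ (i : ℕ) (g : Q), ρ (τ^[i] g) = X ^ i * ρ g * Y ^ i := by
    intro i g
    induction i with
    | zero => simp
    | succ i ih =>
      rw [Function.iterate_succ_apply', ← hτ, ih, pow_succ', pow_succ]
      simp only [mul_assoc]
  -- scalars
  choose! m hm using hfix
  let C : K := ∑ g ∈ univ.filter (fun g => τ g = g), c g * m g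
  have key : ∀ b₀ : Module.End K V, ∑ i ∈ range n, Y ^ i * b₀ * X ^ i = 0 →
      N * tr (a * b₀) = d * (C * tr b₀) := by
    intro b₀ hb₀
    rw [← trace_mul_expansion ρ hirr a b₀]
    congr 1
    rw [← Finset.sum_filter_add_sum_filter_not univ (fun g => τ g = g)]
    have h2 : ∑ g ∈ univ.filter (fun g => ¬ τ g = g), tr (ρ g⁻¹ * a) * tr (ρ g * b₀) = 0 := by
      refine sum_orbit_free τ hn hτn _ _ ?_ ?_ ?_
      · intro g hg
        have hg' := (Finset.mem_filter.mp hg).2
        refine Finset.mem_filter.mpr ⟨Finset.mem_univ _, fun h => hg' (hinjτ h)⟩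
      · intro g hg
        exact hfree g (Finset.mem_filter.mp hg).2
      · intro g _
        have h3 : ∀ i, tr (ρ (τ^[i] g)⁻¹ * a) * tr (ρ (τ^[i] g) * b₀) = c g * tr (ρ g * (Y ^ i * b₀ * X ^ i)) := by
          intro i
          have h4 : tr (ρ (τ^[i] g)⁻¹ * a) = c g := by
            have := hcit i g
            exact this
          rw [h4, hρit]
          congr 1
          have e : X ^ i * ρ g * Y ^ i * b₀ = X ^ i * (ρ g * (Y ^ i * b₀)) := by simp only [mul_assoc]
          rw [e]
          show LinearMap.trace K V _ = LinearMap.trace K V _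
          rw [LinearMap.trace_mul_comm]
          simp only [mul_assoc]
        simp only [h3]
        rw [← Finset.mul_sum, ← map_sum, ← Finset.mul_sum, hb₀, mul_zero, map_zero, mul_zero]
    rw [h2, add_zero]
    rw [Finset.sum_mul]
    refine Finset.sum_congr rfl fun g hg => ?_
    have hg' := (Finset.mem_filter.mp hg).2
    rw [hm g hg', smul_mul_assoc, one_mul, map_smul, smul_eq_mul]
    ring
  have h1 : ∑ i ∈ range n, Y ^ i * (1 : Module.End K V) * X ^ i = 0 := by
    have : ∀ i, Y ^ i * (1 : Module.End K V) * X ^ i = 1 := by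
      intro i
      rw [mul_one, pow_mul_pow_of_inv hYX]
    simp only [this, Finset.sum_const, Finset.card_range]
    rw [← Nat.cast_smul_eq_nsmul K, hnK, zero_smul]
  have e1 := key 1 h1
  have e2 := key b hb
  rw [mul_one] at e1
  have htr1 : tr 1 = d := by
    show LinearMap.trace K V 1 = _
    rw [LinearMap.trace_one]
  rw [htr1] at e1
  apply mul_left_cancel₀ hN
  have e3 : N * (tr (a * b) * d) = N * (tr a * tr b) := by
    calc N * (tr (a * b) * d) = (N * tr (a * b)) * d := by ring
      _ = (d * (C * tr b)) * d := by rw [e2]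
      _ = (d * (C * d)) * tr b := by ring
      _ = (N * tr a) * tr b := by rw [e1]
      _ = N * (tr a * tr b) := by ring
  exact e3

section CharP

variable {p : ℕ} [hp : Fact p.Prime] [CharP K p]

open Polynomial in
theorem poly_geom (N : ℕ) : ∑ i ∈ range (p ^ N), (X : K[X]) ^ i = (X - 1) ^ (p ^ N - 1) := by
  have hX1 : (X : K[X]) - 1 ≠ 0 := by simpa using X_sub_C_ne_zero (1 : K)
  have hpos : 0 < p ^ N := pow_pos hp.out.pos N
  apply mul_left_cancel₀ hX1
  rw [mul_geom_sum, ← pow_succ', show p ^ N - 1 + 1 = p ^ N by omega, sub_pow_char_pow, one_pow]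

open Polynomial in
theorem poly_weight_aux (m : ℕ) : ((X : K[X]) - 1) * ∑ i ∈ range m, (i : K) • (X : K[X]) ^ i =
    (m : K) • X ^ m - X * ∑ i ∈ range m, X ^ i := by
  induction m with
  | zero => simp
  | succ m ih =>
    rw [Finset.sum_range_succ, Finset.sum_range_succ, mul_add, ih]
    simp only [smul_eq_C_mul, Nat.cast_add, Nat.cast_one, map_add, map_one]
    ring

open Polynomial in
theorem poly_weight (N : ℕ) (hN : 0 < N) :
    ∑ i ∈ range (p ^ N), ((i : ℕ) : K) • (X : K[X]) ^ i = - (X * (X - 1) ^ (p ^ N - 2)) := by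
  have hX1 : (X : K[X]) - 1 ≠ 0 := by simpa using X_sub_C_ne_zero (1 : K)
  have h2 : 2 ≤ p ^ N := by
    calc 2 ≤ p := hp.out.two_le
      _ ≤ p ^ N := Nat.le_self_pow hN.ne' p
  apply mul_left_cancel₀ hX1
  rw [poly_weight_aux]
  have hc : ((p ^ N : ℕ) : K) = 0 := by
    rw [CharP.cast_eq_zero_iff K p]
    exact dvd_pow_self p hN.ne'
  rw [hc, zero_smul, poly_geom N]
  have e : p ^ N - 1 = (p ^ N - 2) + 1 := by omega
  rw [e, pow_succ]
  ring

theorem end_sub_one_pow (A : Module.End K V) (N : ℕ) : (A - 1) ^ (p ^ N) = A ^ (p ^ N) - 1 := by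
  have h := congrArg (Polynomial.aeval A) (sub_pow_char_pow (R := Polynomial K) (p := p) (n := N) Polynomial.X 1)
  simpa using h

theorem end_geom (A : Module.End K V) (N : ℕ) : ∑ i ∈ range (p ^ N), A ^ i = (A - 1) ^ (p ^ N - 1) := by
  have h := congrArg (Polynomial.aeval A) (poly_geom (K := K) (p := p) N)
  simpa using h

theorem end_weight (A : Module.End K V) (N : ℕ) (hN : 0 < N) :
    ∑ i ∈ range (p ^ N), ((i : ℕ) : K) • A ^ i = - (A * (A - 1) ^ (p ^ N - 2)) := by
  have h := congrArg (Polynomial.aeval A) (poly_weight (K := K) (p := p) N hN)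
  simpa using h

end CharP

end Cfsg.Agent.Lib.HHB
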