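import Mathlib
import Cfsg.Agent.Lib.HHB.Trace

/-!
# Nilpotent operators: small kernels and operators commuting with them
-/

set_option autoImplicit false

namespace Cfsg.Agent.Lib.HHB

open Module Finset

variable {K V : Type*} [Field K] [AddCommGroup V] [Module K V]

/-- A nilpotent operator with `ker t² ≤ ker t` vanishes. -/
theorem eq_zero_of_ker_sq {t : Module.End K V} {s : ℕ} (hs : t ^ s = 0) (h : ∀ v, t (t v) = 0 → t v = 0) : t = 0 := by
  induction s with
  | zero =>
    ext v
    have h1 : (1 : Module.End K V) v = (0 : Module.End K V) v := by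
      rw [show (1 : Module.End K V) = 0 by simpa using hs]
    have h2 : v = 0 := by simpa using h1
    simp [h2]
  | succ s ih =>
    by_cases hs0 : s = 0
    · subst hs0
      simpa using hs
    apply ih
    ext v
    obtain ⟨k, rfl⟩ : ∃ k, s = k + 1 := ⟨s - 1, by omega⟩
    have h1 : t (t ((t ^ k) v)) = 0 := by
      have : (t ^ (k + 1 + 1)) v = 0 := by rw [hs]; rfl
      rw [pow_succ', pow_succ', Module.End.mul_apply, Module.End.mul_apply] at this
      exact this
    have h2 := h _ h1
    rw [pow_succ', Module.End.mul_apply, h2]
    rfl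

variable [FiniteDimensional K V]

/-- The nilpotency exponent is bounded by the dimension. -/
theorem pow_finrank_eq_zero {t : Module.End K V} {s : ℕ} (hs : t ^ s = 0) : t ^ finrank K V = 0 := by
  have hnil : IsNilpotent t := ⟨s, hs⟩
  have h1 := (LinearMap.isNilpotent_iff_charpoly (R := K) t).mp hnil
  have h2 := LinearMap.aeval_self_charpoly t
  rw [h1] at h2
  simpa using h2

/-- If the kernel of a nilpotent operator is contained in a line, the dimension is bounded by the
nilpotency exponent. -/
theorem finrank_le_of_ker_line {t : Module.End K V} {s : ℕ} (hs : t ^ s = 0) (v₂ : V)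
    (hker : ∀ v, t v = 0 → v ∈ Submodule.span K {v₂}) : finrank K V ≤ s := by
  classical
  have hspan : finrank K (Submodule.span K {v₂}) ≤ 1 := by
    have := finrank_span_le_card (R := K) ({v₂} : Set V)
    simpa using this
  have key : ∀ k, finrank K V ≤ finrank K (LinearMap.range (t ^ k)) + k := by
    intro k
    induction k with
    | zero =>
      rw [pow_zero, add_zero]
      have : LinearMap.range (1 : Module.End K V) = ⊤ := LinearMap.range_id
      rw [this, finrank_top]
    | succ k ih =>
      let S := LinearMap.range (t ^ k)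
      let f : S →ₗ[K] V := t.domRestrict S
      have hr : LinearMap.range f = LinearMap.range (t ^ (k + 1)) := by
        rw [LinearMap.range_domRestrict, pow_succ']
        show Submodule.map t (LinearMap.range (t ^ k)) = LinearMap.range (t ∘ₗ t ^ k)
        rw [LinearMap.range_comp]
      have h1 := LinearMap.finrank_range_add_finrank_ker f
      have hk : finrank K (LinearMap.ker f) ≤ 1 := by
        let i : LinearMap.ker f →ₗ[K] Submodule.span K {v₂} :=
          LinearMap.codRestrict _ (S.subtype ∘ₗ (LinearMap.ker f).subtype) (fun z => by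
            apply hker
            exact LinearMap.mem_ker.mp z.2)
        have hi : Function.Injective i := by
          intro a b h
          have h2 : ((a : S) : V) = ((b : S) : V) := congrArg (fun z : ↥(Submodule.span K {v₂}) => (z : V)) h
          exact Subtype.ext (Subtype.ext h2)
        exact (LinearMap.finrank_le_finrank_of_injective hi).trans hspan
      rw [hr] at h1
      have hS : finrank K S = finrank K (LinearMap.range (t ^ k)) := rfl
      omega
  have h := key s
  rw [hs, LinearMap.range_zero, finrank_bot] at h
  omega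

/-- A standard operator commuting with `t`. -/
noncomputable def aOp (t : Module.End K V) (e : V) (ψ : Module.Dual K V) (s : ℕ) : Module.End K V :=
  ∑ j ∈ range s, ro ((t ^ j) e) (ψ.comp (t ^ (s - 1 - j)))

theorem aOp_comm (t : Module.End K V) (e : V) (ψ : Module.Dual K V) {s : ℕ} (hs : t ^ s = 0) :
    aOp t e ψ s * t = t * aOp t e ψ s := by
  ext w
  simp only [aOp, Module.End.mul_apply, LinearMap.sum_apply, map_sum, ro_apply, LinearMap.comp_apply, map_smul]
  rcases s with _ | s
  · simp
  rw [Finset.sum_range_succ', Finset.sum_range_succ]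
  have h1 : ((t ^ (s + 1 - 1 - 0)) (t w)) = 0 := by
    have : (t ^ (s + 1)) w = 0 := by rw [hs]; rfl
    rw [pow_succ] at this
    simpa using this
  have h2 : t ((t ^ s) e) = 0 := by
    have : (t ^ (s + 1)) e = 0 := by rw [hs]; rfl
    rw [pow_succ'] at this
    exact this
  rw [h1, map_zero, zero_smul, add_zero, h2, smul_zero, add_zero]
  refine Finset.sum_congr rfl fun j hj => ?_
  have hj' := Finset.mem_range.mp hj
  have e1 : (t ^ (s + 1 - 1 - (j + 1))) (t w) = (t ^ (s + 1 - 1 - j)) w := by
    have : s + 1 - 1 - j = (s + 1 - 1 - (j + 1)) + 1 := by omega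
    rw [this, pow_succ]
    rfl
  rw [e1, pow_succ']
  rfl

theorem aOp_apply_ker (t : Module.End K V) (e : V) (ψ : Module.Dual K V) (s : ℕ) {v : V} (hv : t v = 0) :
    aOp t e ψ (s + 1) v = ψ v • (t ^ s) e := by
  simp only [aOp, LinearMap.sum_apply, ro_apply, LinearMap.comp_apply]
  rw [Finset.sum_eq_single s]
  · simp
  · intro j hj hne
    have hj' := Finset.mem_range.mp hj
    obtain ⟨k, hk⟩ : ∃ k, s + 1 - 1 - j = k + 1 := ⟨s + 1 - 1 - j - 1, by omega⟩
    rw [hk, pow_succ, Module.End.mul_apply, hv, map_zero, map_zero, zero_smul]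
  · intro h
    exact absurd (Finset.mem_range.mpr (Nat.lt_succ_self s)) h

end Cfsg.Agent.Lib.HHB
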