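import Mathlib
import Cfsg.Agent.Lib.HHB.Schur

/-!
# The degree of an irreducible representation of a `q`-group is a power of `q`

Over an algebraically closed field of any characteristic: monomial induction on an element which is
central modulo the scalars.
-/

set_option autoImplicit false

namespace Cfsg.Agent.Lib.HHB

open Module

universe u v

variable {K : Type*} [Field K] [IsAlgClosed K]

theorem finrank_eq_pow_of_irr_aux {q : ℕ} [hq : Fact q.Prime] (m : ℕ) :
    ∀ {Q : Type u} [Group Q] [Finite Q] (_ : IsPGroup q Q) (_ : Nat.card Q ≤ m) {V : Type v}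
      [AddCommGroup V] [Module K V] [FiniteDimensional K V] [Nontrivial V] (ρ : Q →* Module.End K V)
      (_ : ∀ W : Submodule K V, (∀ g, W.map (ρ g) ≤ W) → W = ⊥ ∨ W = ⊤), ∃ b, finrank K V = q ^ b := by
  induction m with
  | zero =>
    intro Q _ _ _ hm
    exact absurd hm (by have := Nat.card_pos (α := Q); omega)
  | succ m ih =>
    intro Q _ _ hQ hm V _ _ _ _ ρ hirr
    classical
    have hl : ∀ g, ρ g⁻¹ * ρ g = 1 := fun g => by rw [← map_mul]; simp
    have hr : ∀ g, ρ g * ρ g⁻¹ = 1 := fun g => by rw [← map_mul]; simp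
    have hne1 : (1 : Module.End K V) ≠ 0 := one_ne_zero
    by_cases hall : ∀ g, ∃ μ : K, ρ g = μ • 1
    · -- scalars
      refine ⟨0, ?_⟩
      obtain ⟨v, hv⟩ := exists_ne (0 : V)
      have h1 : Submodule.span K {v} = ⊤ := by
        refine (hirr _ ?_).resolve_left ?_
        · intro g
          rintro _ ⟨w, hw, rfl⟩
          obtain ⟨μ, hμ⟩ := hall g
          simp only [hμ, LinearMap.smul_apply, Module.End.one_apply]
          exact Submodule.smul_mem _ _ hw
        · simpa using hv
      rw [pow_zero, ← finrank_top K V, ← h1]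
      exact finrank_span_singleton hv
    -- the scalar subgroup
    let S : Subgroup Q :=
      { carrier := {g | ∃ μ : K, ρ g = μ • 1}
        mul_mem' := by
          rintro a b ⟨μ, hμ⟩ ⟨ν, hν⟩
          refine ⟨μ * ν, ?_⟩
          rw [map_mul, hμ, hν, smul_mul_smul_comm, one_mul]
        one_mem' := ⟨1, by simp⟩
        inv_mem' := by
          rintro a ⟨μ, hμ⟩
          have hμ0 : μ ≠ 0 := by
            rintro rfl
            have := hl a
            rw [hμ, zero_smul, mul_zero] at this
            exact hne1 this.symm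
          refine ⟨μ⁻¹, ?_⟩
          have h1 := hl a
          rw [hμ, mul_smul_comm, mul_one] at h1
          calc ρ a⁻¹ = μ⁻¹ • (μ • ρ a⁻¹) := by rw [smul_smul, inv_mul_cancel₀ hμ0, one_smul]
            _ = μ⁻¹ • 1 := by rw [h1] }
    have hSmem : ∀ g, g ∈ S ↔ ∃ μ : K, ρ g = μ • 1 := fun g => Iff.rfl
    haveI hSn : S.Normal := by
      constructor
      rintro n ⟨μ, hμ⟩ g
      refine ⟨μ, ?_⟩
      rw [map_mul, map_mul, hμ, mul_smul_comm, mul_one, smul_mul_assoc, hr]
    have hSne : S ≠ ⊤ := by
      intro h
      exact hall fun g => (hSmem g).mp (h ▸ Subgroup.mem_top g)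
    haveI hnt : Nontrivial (Q ⧸ S) := QuotientGroup.nontrivial_iff.mpr hSne
    have hP : IsPGroup q (Q ⧸ S) := hQ.to_quotient S
    haveI := hP.center_nontrivial
    obtain ⟨⟨z, hz⟩, hz1⟩ := exists_ne (1 : Subgroup.center (Q ⧸ S))
    obtain ⟨u, rfl⟩ := QuotientGroup.mk_surjective z
    set U : Module.End K V := ρ u with hU
    have hex : ∀ g, ∃ c : K, U * ρ g = c • (ρ g * U) := by
      intro g
      have h1 := (Subgroup.mem_center_iff.mp hz) (g : Q ⧸ S)
      rw [← QuotientGroup.mk_mul, ← QuotientGroup.mk_mul, QuotientGroup.eq] at h1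
      obtain ⟨μ, hμ⟩ := h1
      refine ⟨μ, ?_⟩
      have h2 : ρ (u * g) = ρ (g * u) * ρ ((g * u)⁻¹ * (u * g)) := by
        rw [← map_mul]; congr 1; group
      rw [hμ, mul_smul_comm, mul_one] at h2
      rw [hU, ← map_mul, ← map_mul, h2]
    choose c hc using hex
    have hUinv : U * ρ u⁻¹ = 1 := hr u
    have hUinv' : ρ u⁻¹ * U = 1 := hl u
    have hZ : ∀ g, ρ g * U ≠ 0 := by
      intro g h
      have h1 : ρ g⁻¹ * (ρ g * U) * ρ u⁻¹ = 1 := by
        rw [← mul_assoc, hl, one_mul, hUinv]
      rw [h, mul_zero, zero_mul] at h1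
      exact hne1 h1.symm
    have huniq : ∀ g (a b : K), a • (ρ g * U) = b • (ρ g * U) → a = b := by
      intro g a b h
      have h1 : (a - b) • (ρ g * U) = 0 := by rw [sub_smul, h, sub_self]
      exact sub_eq_zero.mp ((smul_eq_zero.mp h1).resolve_right (hZ g))
    have hc1 : c 1 = 1 := by
      apply huniq 1
      rw [← hc 1]
      simp
    have hcmul : ∀ g h, c (g * h) = c g * c h := by
      intro g h
      apply huniq (g * h)
      rw [← hc (g * h), map_mul, ← mul_assoc, hc g, smul_mul_assoc, mul_assoc, hc h, mul_smul_comm, smul_smul,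
        mul_assoc]
    let c₀ : Q →* K := { toFun := c, map_one' := hc1, map_mul' := hcmul }
    let c' : Q →* Kˣ := c₀.toHomUnits
    have hc' : ∀ g, ((c' g : Kˣ) : K) = c g := fun g => MonoidHom.coe_toHomUnits c₀ g
    let T : Subgroup Q := c'.ker
    have hTmem : ∀ g, g ∈ T ↔ c g = 1 := by
      intro g
      rw [MonoidHom.mem_ker, ← hc', Units.val_eq_one]
    -- the eigenspaces
    obtain ⟨l, hl'⟩ := Module.End.exists_eigenvalue U
    have hl0 : l ≠ 0 := by
      rintro rfl
      obtain ⟨v, hv⟩ := hl'.exists_hasEigenvector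
      have h1 : U v = 0 := by simpa using hv.apply_eq_smul
      have h2 : (ρ u⁻¹ * U) v = v := by rw [hUinv']; rfl
      rw [Module.End.mul_apply, h1, map_zero] at h2
      exact hv.2 h2.symm
    have hmove : ∀ g (μ : K), ∀ v ∈ U.eigenspace μ, ρ g v ∈ U.eigenspace (c g * μ) := by
      intro g μ v hv
      have hv' : U v = μ • v := Module.End.mem_eigenspace_iff.mp hv
      refine Module.End.mem_eigenspace_iff.mpr ?_
      have h1 := congrArg (fun f => f v) (hc g)
      simp only [Module.End.mul_apply, LinearMap.smul_apply] at h1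
      rw [h1, hv', map_smul, smul_smul]
    let Λ : Subgroup Kˣ := c'.range
    let ι := ↥Λ
    haveI : Finite ι := Finite.of_surjective c'.rangeRestrict c'.rangeRestrict_surjective
    haveI := Fintype.ofFinite ι
    let F : ι → Submodule K V := fun i => U.eigenspace (((i : Kˣ) : K) * l)
    have hFinj : Function.Injective (fun i : ι => ((i : Kˣ) : K) * l) := by
      intro i j h
      exact Subtype.ext (Units.ext (mul_right_cancel₀ hl0 h))
    have hindep : iSupIndep F := (Module.End.eigenspaces_iSupIndep U).comp hFinj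
    have hF1 : F 1 = U.eigenspace l := by
      show U.eigenspace (((1 : Kˣ) : K) * l) = _
      rw [Units.val_one, one_mul]
    have hmoveF : ∀ g (i : ι), ∀ v ∈ F i, ρ g v ∈ F (⟨c' g, ⟨g, rfl⟩⟩ * i) := by
      intro g i v hv
      have h1 := hmove g _ v hv
      have e : c g * (((i : Kˣ) : K) * l) = (((⟨c' g, ⟨g, rfl⟩⟩ * i : ι) : Kˣ) : K) * l := by
        show _ = ((c' g * (i : Kˣ) : Kˣ) : K) * l
        rw [Units.val_mul, hc', mul_assoc]
      rw [e] at h1
      exact h1
    have hEne : U.eigenspace l ≠ ⊥ := hl'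
    have hsup : ⨆ i, F i = ⊤ := by
      refine (hirr _ ?_).resolve_left ?_
      · intro g
        rw [Submodule.map_iSup]
        refine iSup_le fun i => ?_
        rintro _ ⟨v, hv, rfl⟩
        exact Submodule.mem_iSup_of_mem _ (hmoveF g i v hv)
      · intro h
        apply hEne
        rw [← hF1, eq_bot_iff, ← h]
        exact le_iSup F 1
    -- dimension count
    have hint := DirectSum.isInternal_submodule_of_iSupIndep_of_iSup_eq_top hindep hsup
    have hfin : finrank K V = ∑ i, finrank K (F i) := by
      rw [← LinearEquiv.finrank_eq (LinearEquiv.ofBijective (DirectSum.coeLinearMap F) hint),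
        Module.finrank_directSum]
    have hsame : ∀ i, finrank K (F i) = finrank K (U.eigenspace l) := by
      rintro ⟨_, ⟨h, rfl⟩⟩
      let e : V ≃ₗ[K] V := LinearEquiv.ofLinearMap (ρ h) (ρ h⁻¹) (hr h) (hl h)
      have h1 : F ⟨c' h, ⟨h, rfl⟩⟩ = (U.eigenspace l).map (e : V →ₗ[K] V) := by
        apply le_antisymm
        · intro v hv
          refine ⟨ρ h⁻¹ v, ?_, ?_⟩
          · have h2 := hmove h⁻¹ _ v hv
            have e2 : c h⁻¹ * (((c' h : Kˣ) : K) * l) = l := by
              rw [hc', ← mul_assoc, ← hcmul, inv_mul_cancel, hc1, one_mul]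
            rw [e2] at h2
            exact h2
          · show ρ h (ρ h⁻¹ v) = v
            have := congrArg (fun f => f v) (hr h)
            simpa using this
        · rintro _ ⟨v, hv, rfl⟩
          have h2 := hmove h l v hv
          show _ ∈ U.eigenspace (((c' h : Kˣ) : K) * l)
          rw [hc']
          exact h2
      rw [h1]
      exact LinearEquiv.finrank_map_eq e _
    have hcount : finrank K V = Nat.card ι * finrank K (U.eigenspace l) := by
      rw [hfin, Finset.sum_congr rfl (fun i _ => hsame i), Finset.sum_const, Finset.card_univ, smul_eq_mul,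
        Nat.card_eq_fintype_card]
    -- T is proper
    have hTne : T ≠ ⊤ := by
      intro h
      apply hz1
      apply Subtype.ext
      show (u : Q ⧸ S) = 1
      rw [QuotientGroup.eq_one_iff]
      refine (hSmem u).mpr ?_
      refine schur_scalar ρ hirr U (fun g => ?_)
      have h1 : c g = 1 := (hTmem g).mp (h ▸ Subgroup.mem_top g)
      have h2 := hc g
      rw [h1, one_smul] at h2
      exact h2.symm
    have hcardT : Nat.card T ≤ m := by
      have h1 : Nat.card T * T.index = Nat.card Q := T.card_mul_index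
      have h2 : T.index ≠ 1 := fun h => hTne (Subgroup.index_eq_one.mp h)
      have h3 : T.index ≠ 0 := Subgroup.index_ne_zero_of_finite
      have h4 : 2 ≤ T.index := by omega
      have h5 : 0 < Nat.card T := Nat.card_pos
      nlinarith
    -- the restricted representation
    let E := U.eigenspace l
    have hEinv : ∀ t : T, ∀ v ∈ E, ρ t.1 v ∈ E := by
      intro t v hv
      have h1 := hmove t.1 l v hv
      rw [(hTmem t.1).mp t.2, one_mul] at h1
      exact h1
    let ρ' : T →* Module.End K E :=
      { toFun := fun t => (ρ t.1).restrict (hEinv t)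
        map_one' := by
          ext v
          simp
        map_mul' := by
          intro a b
          ext v
          simp }
    have hρ' : ∀ (t : T) (v : E), ((ρ' t v : E) : V) = ρ t.1 v.1 := fun t v => rfl
    haveI hEnt : Nontrivial E := Submodule.nontrivial_iff_ne_bot.mpr hEne
    have hirr' : ∀ W : Submodule K E, (∀ g, W.map (ρ' g) ≤ W) → W = ⊥ ∨ W = ⊤ := by
      intro W hW
      by_cases hW0 : W = ⊥
      · exact Or.inl hW0
      right
      let W₂ : Submodule K V := W.map E.subtype
      have hW₂E : W₂ ≤ E := by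
        rintro _ ⟨v, -, rfl⟩
        exact v.2
      have hW₂T : ∀ t : T, W₂.map (ρ t.1) ≤ W₂ := by
        rintro t _ ⟨_, ⟨v, hv, rfl⟩, rfl⟩
        exact ⟨ρ' t v, hW t ⟨v, hv, rfl⟩, rfl⟩
      let Wt : Submodule K V := ⨆ g : Q, W₂.map (ρ g)
      have hWt : Wt = ⊤ := by
        refine (hirr _ ?_).resolve_left ?_
        · intro h
          rw [Submodule.map_iSup]
          refine iSup_le fun g => ?_
          rintro _ ⟨_, ⟨w, hw, rfl⟩, rfl⟩
          refine Submodule.mem_iSup_of_mem (h * g) ⟨w, hw, ?_⟩
          rw [map_mul]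
          rfl
        · intro h
          apply hW0
          rw [eq_bot_iff]
          intro v hv
          have h1 : (v : V) ∈ Wt := by
            refine Submodule.mem_iSup_of_mem (1 : Q) ⟨v, ⟨v, hv, rfl⟩, ?_⟩
            simp
          rw [h] at h1
          have h2 : (v : V) = 0 := (Submodule.mem_bot K).mp h1
          exact (Submodule.mem_bot K).mpr (Subtype.ext h2)
      let D : Submodule K V := ⨆ (j : ι) (_ : j ≠ 1), F j
      have hle : Wt ≤ W₂ ⊔ D := by
        refine iSup_le fun g => ?_
        by_cases hg : c g = 1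
        · exact (hW₂T ⟨g, (hTmem g).mpr hg⟩).trans le_sup_left
        · refine le_trans ?_ le_sup_right
          rintro _ ⟨w, hw, rfl⟩
          have hwE := hW₂E hw
          have hj : (⟨c' g, ⟨g, rfl⟩⟩ : ι) ≠ 1 := by
            intro h
            apply hg
            have h1 : c' g = 1 := congrArg Subtype.val h
            rw [← hc', h1, Units.val_one]
          refine Submodule.mem_iSup_of_mem _ (Submodule.mem_iSup_of_mem hj ?_)
          have h2 := hmove g l w hwE
          show _ ∈ U.eigenspace (((c' g : Kˣ) : K) * l)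
          rw [hc']
          exact h2
      rw [eq_top_iff]
      intro x _
      have hx : (x : V) ∈ W₂ ⊔ D := hle (by rw [hWt]; trivial)
      obtain ⟨w, hw, y, hy, e⟩ := Submodule.mem_sup.mp hx
      have hyE : y ∈ F 1 := by
        rw [hF1]
        have h1 : y = x.1 - w := by rw [← e]; abel
        rw [h1]
        exact Submodule.sub_mem _ x.2 (hW₂E hw)
      have hdis := hindep (1 : ι)
      have hy0 : y = 0 := by
        have := (Submodule.disjoint_def.mp hdis) y hyE hy
        exact this
      rw [hy0, add_zero] at e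
      obtain ⟨w', hw', rfl⟩ := hw
      have : x = w' := Subtype.ext e.symm
      rw [this]
      exact hw'
    obtain ⟨b, hb⟩ := ih (hQ.to_subgroup T) hcardT ρ' hirr'
    -- the index
    have hιcard : Nat.card ι = T.index := (Subgroup.index_ker c').symm
    obtain ⟨k, hk⟩ := IsPGroup.iff_card.mp hQ
    have hd : T.index ∣ q ^ k := by
      rw [← hk]
      exact Subgroup.index_dvd_card T
    obtain ⟨a, -, ha⟩ := (Nat.dvd_prime_pow hq.out).mp hd
    refine ⟨a + b, ?_⟩
    rw [hcount, hιcard, ha, pow_add]
    congr 1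

/-- **The degree of an irreducible representation of a `q`-group is a power of `q`.** -/
theorem finrank_eq_pow_of_irr {q : ℕ} [hq : Fact q.Prime] {Q : Type u} [Group Q] [Finite Q] (hQ : IsPGroup q Q)
    {V : Type v} [AddCommGroup V] [Module K V] [FiniteDimensional K V] [Nontrivial V] (ρ : Q →* Module.End K V)
    (hirr : ∀ W : Submodule K V, (∀ g, W.map (ρ g) ≤ W) → W = ⊥ ∨ W = ⊤) : ∃ b, finrank K V = q ^ b :=
  finrank_eq_pow_of_irr_aux (Nat.card Q) hQ le_rfl ρ hirr

end Cfsg.Agent.Lib.HHB
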