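import Mathlib
import Cfsg.Agent.Lib.HHB.Nil
import Cfsg.Agent.Lib.HHB.QDim

/-!
# The critical case of Hall--Higman's Theorem B

`Q` acts irreducibly on `V` in characteristic prime to `|Q|`; `X` of order `p ^ N` normalizes the image of `Q`
and acts on `Q` freely outside the scalars.  Then the degree of the minimal polynomial of `X` is at least `p ^ N - 1`,
and if it is `p ^ N - 1` then `dim V = p ^ N - 1`.
-/

set_option autoImplicit false

namespace Cfsg.Agent.Lib.HHB

open Module Finset

variable {K V : Type*} [Field K] [AddCommGroup V] [Module K V]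

theorem crit_core {Q : Type*} [Group Q] [Fintype Q] [IsAlgClosed K] [FiniteDimensional K V] [Nontrivial V]
    {p : ℕ} [hp : Fact p.Prime] [CharP K p]
    (ρ : Q →* Module.End K V) (hirr : ∀ W : Submodule K V, (∀ g, W.map (ρ g) ≤ W) → W = ⊥ ∨ W = ⊤)
    (hN : (Fintype.card Q : K) ≠ 0) (X Y : Module.End K V) (hXY : X * Y = 1) (hYX : Y * X = 1)
    (τ : Q → Q) {M : ℕ} (hM : 0 < M) (hτn : ∀ g, τ^[p ^ M] g = g)
    (hτ : ∀ g, X * ρ g * Y = ρ (τ g)) (hτinv : ∀ g, τ g⁻¹ = (τ g)⁻¹)
    (hfix : ∀ g, τ g = g → ∃ μ : K, ρ g = μ • 1)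
    (hfree : ∀ g, τ g ≠ g → ∀ i, 0 < i → i < p ^ M → τ^[i] g ≠ g)
    (hXp : X ^ p ^ M = 1) (hX1 : X ≠ 1) (s : ℕ) (hs : (X - 1) ^ s = 0) (hmin : ∀ k < s, (X - 1) ^ k ≠ 0) :
    p ^ M - 1 ≤ s ∧ s ≤ p ^ M ∧ (s = p ^ M - 1 → finrank K V = s) := by
  classical
  set n := p ^ M with hn
  have hnpos : 0 < n := pow_pos hp.out.pos M
  have h2n : 2 ≤ n := by
    calc 2 ≤ p := hp.out.two_le
      _ ≤ p ^ M := Nat.le_self_pow hM.ne' p
  have hnK : (n : K) = 0 := by
    rw [hn, CharP.cast_eq_zero_iff K p]
    exact dvd_pow_self p hM.ne'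
  have hd0 : (finrank K V : K) ≠ 0 := finrank_ne_zero_of_irr ρ hirr hN
  set t : Module.End K V := X - 1 with ht
  have hXt : X = t + 1 := by rw [ht]; abel
  have ht0 : t ≠ 0 := fun h => hX1 (by rw [hXt, h, zero_add])
  have htn : t ^ n = 0 := by
    rw [ht, hn, end_sub_one_pow (p := p), hXp, sub_self]
  have hsn : s ≤ n := by
    by_contra hcon
    exact hmin n (by omega) htn
  have hs1 : 1 ≤ s := by
    by_contra hcon
    have h0 : s = 0 := by omega
    rw [h0, pow_zero] at hs
    exact one_ne_zero hs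
  have TI : ∀ a b : Module.End K V, a * X = X * a → ∑ i ∈ range n, Y ^ i * b * X ^ i = 0 →
      LinearMap.trace K V (a * b) * (finrank K V : K) = LinearMap.trace K V a * LinearMap.trace K V b :=
    fun a b hab hb => trace_identity ρ hirr hN X Y hXY hYX τ hnpos hnK hτn hτ hτinv hfix hfree a b hab hb
  have htr0 : LinearMap.trace K V t = 0 := by
    have h1 : IsNilpotent t := ⟨s, hs⟩
    have h2 := LinearMap.isNilpotent_trace_of_isNilpotent h1
    exact h2.eq_zero
  have hterm : ∀ (i : ℕ) (v : V) (φ : Module.Dual K V) (w : V), (Y ^ i * ro v φ * X ^ i) w = φ ((X ^ i) w) • (Y ^ i) v := by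
    intro i v φ w
    simp [Module.End.mul_apply]
  -- the lower bound
  have hlow : n - 1 ≤ s := by
    by_contra hcon
    have h1 : t ^ (n - 1) = 0 := pow_eq_zero_of_le (by omega) hs
    have h2 : t ^ (n - 2) = 0 := pow_eq_zero_of_le (by omega) hs
    have hg : ∑ i ∈ range n, X ^ i = 0 := by
      rw [hn, end_geom (p := p)]
      exact h1
    have hw : ∑ i ∈ range n, ((i : ℕ) : K) • X ^ i = 0 := by
      rw [hn, end_weight (p := p) X M hM]
      rw [← ht]
      have : t ^ (p ^ M - 2) = 0 := h2
      rw [this, mul_zero, neg_zero]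
    apply ht0
    refine eq_zero_of_ker_sq hs fun v hv => ?_
    have hXtv : X (t v) = t v := by
      rw [hXt]
      simp [hv]
    have hYtv : Y (t v) = t v := by
      have := congrArg (fun f => f (t v)) hYX
      simp only [Module.End.mul_apply, hXtv, Module.End.one_apply] at this
      exact this
    have hYv : Y v = v - t v := by
      have h3 := congrArg (fun f => f v) hYX
      simp only [Module.End.mul_apply, Module.End.one_apply] at h3
      have h4 : X v = v + t v := by rw [hXt]; simp [add_comm]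
      rw [h4, map_add, hYtv] at h3
      rw [eq_sub_iff_add_eq, h3]
    have hYi : ∀ i : ℕ, (Y ^ i) v = v - ((i : ℕ) : K) • t v := by
      intro i
      induction i with
      | zero => simp
      | succ i ih =>
        rw [pow_succ', Module.End.mul_apply, ih, map_sub, map_smul, hYtv, hYv]
        push_cast
        rw [add_smul, one_smul]
        abel
    rw [← Module.forall_dual_apply_eq_zero_iff K]
    intro φ
    have hb : ∑ i ∈ range n, Y ^ i * ro v φ * X ^ i = 0 := by
      ext w
      rw [LinearMap.sum_apply]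
      simp only [hterm, hYi, smul_sub, smul_smul]
      rw [Finset.sum_sub_distrib, ← Finset.sum_smul, ← Finset.sum_smul]
      have e1 : ∑ i ∈ range n, φ ((X ^ i) w) = 0 := by
        have := congrArg (fun f => φ (f w)) hg
        simpa [LinearMap.sum_apply, map_sum] using this
      have e2 : ∑ i ∈ range n, φ ((X ^ i) w) * ((i : ℕ) : K) = 0 := by
        have := congrArg (fun f => φ (f w)) hw
        simpa [LinearMap.sum_apply, map_sum, mul_comm] using this
      rw [e1, e2]
      simp
    have h3 := TI t (ro v φ) (by rw [hXt]; simp [mul_add, add_mul]) hb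
    rw [htr0, zero_mul, trace_mul_ro] at h3
    exact (mul_eq_zero.mp h3).resolve_right hd0
  refine ⟨hlow, hsn, fun hsn1 => ?_⟩
  -- the kernel is a line
  have h1 : t ^ (n - 1) = 0 := by rw [← hsn1]; exact hs
  have hg : ∑ i ∈ range n, X ^ i = 0 := by
    rw [hn, end_geom (p := p)]
    exact h1
  have hsc : ∀ (a : Module.End K V), a * X = X * a → ∀ v, t v = 0 → ∀ φ : Module.Dual K V,
      φ (a v) * (finrank K V : K) = LinearMap.trace K V a * φ v := by
    intro a ha v hv φ
    have hXv : X v = v := by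
      rw [hXt]
      simp [hv]
    have hYv : Y v = v := by
      have := congrArg (fun f => f v) hYX
      simp only [Module.End.mul_apply, hXv, Module.End.one_apply] at this
      exact this
    have hYi : ∀ i : ℕ, (Y ^ i) v = v := by
      intro i
      induction i with
      | zero => simp
      | succ i ih => rw [pow_succ', Module.End.mul_apply, ih, hYv]
    have hb : ∑ i ∈ range n, Y ^ i * ro v φ * X ^ i = 0 := by
      ext w
      rw [LinearMap.sum_apply]
      simp only [hterm, hYi]
      rw [← Finset.sum_smul]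
      have e1 : ∑ i ∈ range n, φ ((X ^ i) w) = 0 := by
        have := congrArg (fun f => φ (f w)) hg
        simpa [LinearMap.sum_apply, map_sum] using this
      rw [e1]
      simp
    have h3 := TI a (ro v φ) ha hb
    rw [trace_mul_ro, trace_ro] at h3
    exact h3
  obtain ⟨s', rfl⟩ : ∃ s', s = s' + 1 := ⟨s - 1, by omega⟩
  have hts' : t ^ s' ≠ 0 := hmin s' (Nat.lt_succ_self s')
  obtain ⟨e, he⟩ : ∃ e, (t ^ s') e ≠ 0 := by
    by_contra hcon
    push Not at hcon
    exact hts' (LinearMap.ext hcon)
  set v₂ := (t ^ s') e with hv₂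
  have hker : ∀ v, t v = 0 → v ∈ Submodule.span K {v₂} := by
    intro v₁ hv₁
    by_contra hnot
    obtain ⟨ψ, hψ1, hψ2⟩ := Submodule.exists_le_ker_of_notMem hnot
    have hψv₂ : ψ v₂ = 0 := hψ2 (Submodule.mem_span_singleton_self v₂)
    let a := aOp t e ψ (s' + 1)
    have ha : a * X = X * a := by
      have h3 : a * t = t * a := aOp_comm t e ψ hs
      rw [hXt, mul_add, add_mul, h3, mul_one, one_mul]
    have hav : a v₁ = ψ v₁ • v₂ := aOp_apply_ker t e ψ s' hv₁
    have h3 := hsc a ha v₁ hv₁ ψ
    rw [hav, map_smul, hψv₂, smul_zero, zero_mul] at h3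
    have htra : LinearMap.trace K V a = 0 := (mul_eq_zero.mp h3.symm).resolve_right hψ1
    apply he
    rw [← Module.forall_dual_apply_eq_zero_iff K]
    intro φ
    have h4 := hsc a ha v₁ hv₁ φ
    rw [htra, zero_mul, hav, map_smul, smul_eq_mul] at h4
    have h5 := (mul_eq_zero.mp h4).resolve_right hd0
    exact (mul_eq_zero.mp h5).resolve_left hψ1
  have hle := finrank_le_of_ker_line hs v₂ hker
  have hge : s' + 1 ≤ finrank K V := by
    by_contra hcon
    exact hmin _ (by omega) (pow_finrank_eq_zero hs)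
  omega

end Cfsg.Agent.Lib.HHB
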