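import Mathlib
import Cfsg.Agent.Lib.HHB.Crit

/-!
# Twists, orthogonality, invariant complements
-/

set_option autoImplicit false

namespace Cfsg.Agent.Lib.HHB

open Module Finset

variable {K W S : Type*} [Field K] [AddCommGroup W] [Module K W] [AddCommGroup S] [Module K S]
variable {Q : Type*} [Group Q]

/-- `ρ` and its twist by `θ` are equivalent. -/
def TW (ρ : Q →* Module.End K S) (θ : MulAut Q) : Prop :=
  ∃ A A' : Module.End K S, A * A' = 1 ∧ A' * A = 1 ∧ ∀ g, A * ρ g * A' = ρ (θ g)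

theorem TW_one (ρ : Q →* Module.End K S) : TW ρ 1 := ⟨1, 1, by simp, by simp, fun g => by simp⟩

theorem TW_mul {ρ : Q →* Module.End K S} {θ₁ θ₂ : MulAut Q} (h₁ : TW ρ θ₁) (h₂ : TW ρ θ₂) : TW ρ (θ₁ * θ₂) := by
  obtain ⟨A, A', h1, h2, h3⟩ := h₁
  obtain ⟨B, B', h4, h5, h6⟩ := h₂
  refine ⟨A * B, B' * A', ?_, ?_, fun g => ?_⟩
  · calc A * B * (B' * A') = A * (B * B') * A' := by simp only [mul_assoc]
      _ = 1 := by rw [h4, mul_one, h1]
  · calc B' * A' * (A * B) = B' * (A' * A) * B := by simp only [mul_assoc]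
      _ = 1 := by rw [h2, mul_one, h5]
  · calc A * B * ρ g * (B' * A') = A * (B * ρ g * B') * A' := by simp only [mul_assoc]
      _ = ρ ((θ₁ * θ₂) g) := by rw [h6, h3]; rfl

theorem TW_inv {ρ : Q →* Module.End K S} {θ : MulAut Q} (h : TW ρ θ) : TW ρ θ⁻¹ := by
  obtain ⟨A, A', h1, h2, h3⟩ := h
  refine ⟨A', A, h2, h1, fun g => ?_⟩
  have e : g = θ (θ⁻¹ g) := by simp
  have h4 := h3 (θ⁻¹ g)
  rw [← e] at h4
  calc A' * ρ g * A = A' * (A * ρ (θ⁻¹ g) * A') * A := by rw [h4]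
    _ = (A' * A) * ρ (θ⁻¹ g) * (A' * A) := by simp only [mul_assoc]
    _ = ρ (θ⁻¹ g) := by rw [h2]; simp

theorem TW_pow {ρ : Q →* Module.End K S} {θ : MulAut Q} (h : TW ρ θ) (i : ℕ) : TW ρ (θ ^ i) := by
  induction i with
  | zero => simpa using TW_one ρ
  | succ i ih => rw [pow_succ]; exact TW_mul ih h

theorem trace_eq_sum [FiniteDimensional K S] (a : Module.End K S) :
    LinearMap.trace K S a = ∑ i, (Module.finBasis K S).coord i (a (Module.finBasis K S i)) := by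
  classical
  let b := Module.finBasis K S
  have hdec : a = ∑ i, ro (a (b i)) (b.coord i) := by
    ext v
    conv_lhs => rw [← b.sum_repr v, map_sum]
    simp [LinearMap.sum_apply]
  conv_lhs => rw [hdec]
  rw [map_sum]
  refine Finset.sum_congr rfl fun i _ => ?_
  rw [trace_ro]

section Orth

variable [IsAlgClosed K] [FiniteDimensional K S] [Nontrivial S] [Fintype Q]

/-- Orthogonality for non-equivalent twists. -/
theorem orth (ρ : Q →* Module.End K S) (hirr : ∀ W : Submodule K S, (∀ g, W.map (ρ g) ≤ W) → W = ⊥ ∨ W = ⊤)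
    (θ : MulAut Q) (h : ¬ TW ρ θ) (v : S) :
    ∑ g, LinearMap.trace K S (ρ g⁻¹) • ρ (θ g) v = 0 := by
  classical
  have hl : ∀ g, ρ g⁻¹ * ρ g = 1 := fun g => by rw [← map_mul]; simp
  have hr : ∀ g, ρ g * ρ g⁻¹ = 1 := fun g => by rw [← map_mul]; simp
  have key : ∀ (v : S) (φ : Module.Dual K S), ∑ g, ρ (θ g) * ro v φ * ρ g⁻¹ = 0 := by
    intro v φ
    set B : Module.End K S := ∑ g, ρ (θ g) * ro v φ * ρ g⁻¹ with hB
    have hint : ∀ k, ρ (θ k) * B = B * ρ k := by
      intro k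
      have h1 : ρ (θ k) * B * ρ k⁻¹ = B := by
        rw [hB, Finset.mul_sum, Finset.sum_mul]
        refine Fintype.sum_equiv (Equiv.mulLeft k) _ _ (fun g => ?_)
        simp only [Equiv.coe_mulLeft, mul_inv_rev, map_mul, mul_assoc]
      calc ρ (θ k) * B = ρ (θ k) * B * (ρ k⁻¹ * ρ k) := by rw [hl, mul_one]
        _ = (ρ (θ k) * B * ρ k⁻¹) * ρ k := by simp only [mul_assoc]
        _ = B * ρ k := by rw [h1]
    by_contra hne
    have hker : LinearMap.ker B = ⊥ := by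
      refine (hirr (LinearMap.ker B) ?_).resolve_right ?_
      · intro g
        rintro _ ⟨u, hu, rfl⟩
        have h1 := congrArg (fun f => f u) (hint g)
        simp only [Module.End.mul_apply] at h1
        rw [LinearMap.mem_ker, ← h1, LinearMap.mem_ker.mp hu, map_zero]
      · intro h1
        exact hne (LinearMap.ker_eq_top.mp h1)
    have hinj : Function.Injective B := LinearMap.ker_eq_bot.mp hker
    have hsurj : Function.Surjective B := LinearMap.injective_iff_surjective.mp hinj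
    obtain ⟨e, he⟩ := (Module.End.isUnit_iff B).mpr ⟨hinj, hsurj⟩
    apply h
    refine ⟨B, (e⁻¹ : (Module.End K S)ˣ), ?_, ?_, fun g => ?_⟩
    · rw [← he]; exact e.mul_inv
    · rw [← he]; exact e.inv_mul
    · have h2 : (e : Module.End K S) * ((e⁻¹ : (Module.End K S)ˣ) : Module.End K S) = 1 := e.mul_inv
      rw [he] at h2
      calc B * ρ g * ((e⁻¹ : (Module.End K S)ˣ) : Module.End K S)
          = ρ (θ g) * B * ((e⁻¹ : (Module.End K S)ˣ) : Module.End K S) := by rw [hint]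
        _ = ρ (θ g) := by rw [mul_assoc, h2, mul_one]
  let b := Module.finBasis K S
  have h1 : ∀ i, ∑ g, (b.coord i) (ρ g⁻¹ (b i)) • ρ (θ g) v = 0 := by
    intro i
    have h2 := congrArg (fun f => f (b i)) (key v (b.coord i))
    simpa [LinearMap.sum_apply, Module.End.mul_apply] using h2
  have h3 : ∑ g, LinearMap.trace K S (ρ g⁻¹) • ρ (θ g) v =
      ∑ i, ∑ g, (b.coord i) (ρ g⁻¹ (b i)) • ρ (θ g) v := by
    rw [Finset.sum_comm]
    refine Finset.sum_congr rfl fun g _ => ?_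
    rw [trace_eq_sum, Finset.sum_smul]
  rw [h3, Finset.sum_eq_zero (fun i _ => h1 i)]

end Orth

section Compl

variable {Q' : Type*} [Group Q'] [Fintype Q'] [FiniteDimensional K W]

/-- **Maschke**: an invariant subspace has an invariant complement. -/
theorem exists_inv_compl (ρ : Q' →* Module.End K W) (hN : (Fintype.card Q' : K) ≠ 0) (L : Submodule K W)
    (hL : ∀ g, ∀ v ∈ L, ρ g v ∈ L) : ∃ L' : Submodule K W, IsCompl L L' ∧ ∀ g, ∀ v ∈ L', ρ g v ∈ L' := by
  classical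
  have hl : ∀ g, ρ g⁻¹ * ρ g = 1 := fun g => by rw [← map_mul]; simp
  have hr : ∀ g, ρ g * ρ g⁻¹ = 1 := fun g => by rw [← map_mul]; simp
  obtain ⟨C, hC⟩ := Submodule.exists_isCompl L
  let π₀ : W →ₗ[K] L := Submodule.linearProjOfIsCompl L C hC
  let p₀ : Module.End K W := L.subtype ∘ₗ π₀
  have hp₀ : ∀ v, p₀ v ∈ L := fun v => (π₀ v).2
  have hp₀L : ∀ v ∈ L, p₀ v = v := by
    intro v hv
    exact congrArg Subtype.val (Submodule.linearProjOfIsCompl_apply_left hC ⟨v, hv⟩)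
  let N := (Fintype.card Q' : K)
  let p : Module.End K W := N⁻¹ • ∑ g, ρ g * p₀ * ρ g⁻¹
  have hpL : ∀ v, p v ∈ L := by
    intro v
    simp only [p, LinearMap.smul_apply, LinearMap.sum_apply, Module.End.mul_apply]
    refine L.smul_mem _ (L.sum_mem fun g _ => hL g _ (hp₀ _))
  have hpid : ∀ v ∈ L, p v = v := by
    intro v hv
    simp only [p, LinearMap.smul_apply, LinearMap.sum_apply, Module.End.mul_apply]
    have h1 : ∀ g, ρ g (p₀ (ρ g⁻¹ v)) = v := by
      intro g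
      rw [hp₀L _ (hL g⁻¹ v hv)]
      have := congrArg (fun f => f v) (hr g)
      simpa using this
    simp only [h1, Finset.sum_const, Finset.card_univ]
    rw [← Nat.cast_smul_eq_nsmul K, smul_smul, inv_mul_cancel₀ hN, one_smul]
  have hpcomm : ∀ h, p * ρ h = ρ h * p := by
    intro h
    simp only [p, smul_mul_assoc, mul_smul_comm, Finset.sum_mul, Finset.mul_sum]
    congr 1
    refine Fintype.sum_equiv (Equiv.mulLeft h⁻¹) _ _ (fun g => ?_)
    simp only [Equiv.coe_mulLeft, mul_inv_rev, inv_inv, map_mul, mul_assoc, hl, hr, mul_one]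
    rw [← mul_assoc (ρ h), hr, one_mul]
  refine ⟨LinearMap.ker p, ?_, ?_⟩
  · let f : W →ₗ[K] L := p.codRestrict L hpL
    have hf : ∀ x : L, f x = x := fun x => Subtype.ext (hpid x x.2)
    have h1 := LinearMap.isCompl_of_proj hf
    have h2 : LinearMap.ker f = LinearMap.ker p := by
      ext v
      simp [f, LinearMap.mem_ker, Subtype.ext_iff]
    rwa [h2] at h1
  · intro g v hv
    have h1 := congrArg (fun f => f v) (hpcomm g)
    simp only [Module.End.mul_apply] at h1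
    rw [LinearMap.mem_ker, h1, LinearMap.mem_ker.mp hv, map_zero]

/-- Minimal invariant subspaces exist under a nonzero invariant subspace. -/
theorem exists_min_inv (ρ : Q' →* Module.End K W) (L : Submodule K W) (hL0 : L ≠ ⊥) (hL : ∀ g, ∀ v ∈ L, ρ g v ∈ L) :
    ∃ S : Submodule K W, S ≤ L ∧ S ≠ ⊥ ∧ (∀ g, ∀ v ∈ S, ρ g v ∈ S) ∧
      ∀ S' : Submodule K W, S' ≤ S → (∀ g, ∀ v ∈ S', ρ g v ∈ S') → S' = ⊥ ∨ S' = S := by
  classical
  have hex : ∃ n, ∃ S : Submodule K W, S ≤ L ∧ S ≠ ⊥ ∧ (∀ g, ∀ v ∈ S, ρ g v ∈ S) ∧ finrank K S = n :=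
    ⟨_, L, le_rfl, hL0, hL, rfl⟩
  obtain ⟨S, h1, h2, h3, h4⟩ := Nat.find_spec hex
  refine ⟨S, h1, h2, h3, fun S' hS' hinv => ?_⟩
  by_cases h0 : S' = ⊥
  · exact Or.inl h0
  right
  refine Submodule.eq_of_le_of_finrank_eq hS' ?_
  have h5 : finrank K S' ≤ finrank K S := Submodule.finrank_mono hS'
  have h6 : ¬ finrank K S' < Nat.find hex := fun hlt =>
    Nat.find_min hex hlt ⟨S', hS'.trans h1, h0, hinv, rfl⟩
  omega

/-- An irreducible invariant subspace separating two operators. -/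
theorem exists_irr_sep (ρ : Q' →* Module.End K W) (hN : (Fintype.card Q' : K) ≠ 0) (a b : Module.End K W)
    (hab : a ≠ b) : ∃ S : Submodule K W, S ≠ ⊥ ∧ (∀ g, ∀ v ∈ S, ρ g v ∈ S) ∧
      (∀ S' : Submodule K W, S' ≤ S → (∀ g, ∀ v ∈ S', ρ g v ∈ S') → S' = ⊥ ∨ S' = S) ∧ ∃ v ∈ S, a v ≠ b v := by
  classical
  let I : Set (Submodule K W) := {S | S ≠ ⊥ ∧ (∀ g, ∀ v ∈ S, ρ g v ∈ S) ∧
      ∀ S' : Submodule K W, S' ≤ S → (∀ g, ∀ v ∈ S', ρ g v ∈ S') → S' = ⊥ ∨ S' = S}
  let L : Submodule K W := sSup I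
  have hL : ∀ g, ∀ v ∈ L, ρ g v ∈ L := by
    intro g v hv
    have h1 : L ≤ L.comap (ρ g) := by
      refine sSup_le fun S hS v hv => ?_
      exact (le_sSup hS : S ≤ L) (hS.2.1 g v hv)
    exact h1 hv
  have htop : L = ⊤ := by
    by_contra hne
    obtain ⟨L', hc, hinv⟩ := exists_inv_compl ρ hN L hL
    have hL'0 : L' ≠ ⊥ := by
      intro h0
      rw [h0] at hc
      exact hne ((sup_bot_eq L).symm.trans hc.sup_eq_top)
    obtain ⟨S, h1, h2, h3, h4⟩ := exists_min_inv ρ L' hL'0 hinv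
    have h5 : S ≤ L := le_sSup (show S ∈ I from ⟨h2, h3, h4⟩)
    exact h2 (eq_bot_iff.mpr fun v hv => hc.disjoint.le_bot ⟨h5 hv, h1 hv⟩)
  by_contra hcon
  push Not at hcon
  apply hab
  have h1 : L ≤ LinearMap.eqLocus a b := by
    refine sSup_le fun S hS v hv => ?_
    exact hcon S hS.1 hS.2.1 hS.2.2 v hv
  rw [htop] at h1
  ext v
  exact h1 (Submodule.mem_top)

end Compl

end Cfsg.Agent.Lib.HHB
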